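import Cfsg.Agent.AbelianFix.Minimal
import Cfsg.Agent.ThompsonComplement.Main
import Cfsg.Agent.SolvableStructure.Schmidt

/-!
A minimal counterexample has a non-nilpotent invariant proper subgroup.
-/

set_option autoImplicit false

namespace CfsgLib.AbelianFix

open CfsgLib.Coprime

universe u

variable {X : Type u} [Group X] [Finite X] {q : ℕ} {A G : Subgroup X}

theorem le_normalizer_map_normalizer {K : Subgroup X} {U : Subgroup ↥G}
    (hG : K ≤ Subgroup.normalizer (G : Set X))
    (hU : K ≤ Subgroup.normalizer ((U.map G.subtype : Subgroup X) : Set X)) :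
    K ≤ Subgroup.normalizer (((Subgroup.normalizer (U : Set G)).map G.subtype : Subgroup X) : Set X) := by
  have hback : ∀ k ∈ K, ∀ w : G, w ∈ U → k * w * k⁻¹ ∈ U.map G.subtype := fun k hk w hw =>
    conj_mem_of_le_normalizer hU hk ⟨w, hw, rfl⟩
  refine le_normalizer_of_conj_mem ?_
  rintro k hk _ ⟨g, hg, rfl⟩
  refine ⟨⟨k * g * k⁻¹, conj_mem_of_le_normalizer hG hk g.2⟩, ?_, rfl⟩
  have key : ∀ g : G, g ∈ Subgroup.normalizer (U : Set G) → ∀ u : G, u ∈ U →
      k * g * k⁻¹ * (u : X) * (k * g * k⁻¹)⁻¹ ∈ U.map G.subtype := by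
    intro g hg u hu
    obtain ⟨w, hw, hwe⟩ := hback k⁻¹ (inv_mem hk) u hu
    have h2 := hback k hk (g * w * g⁻¹) ((Subgroup.mem_normalizer_iff.mp hg w).mp hw)
    have e : k * g * k⁻¹ * (u : X) * (k * g * k⁻¹)⁻¹ = k * ((g * w * g⁻¹ : G) : X) * k⁻¹ := by
      have hwe' : (w : X) = k⁻¹ * u * k⁻¹⁻¹ := hwe
      push_cast
      rw [hwe']; group
    rw [e]; exact h2
  refine Subgroup.mem_normalizer_iff.mpr fun u => ⟨fun hu => ?_, fun hu => ?_⟩
  · obtain ⟨v, hv, hve⟩ := key g hg u hu
    rwa [show (⟨k * g * k⁻¹, conj_mem_of_le_normalizer hG hk g.2⟩ : G) * u *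
      (⟨k * g * k⁻¹, conj_mem_of_le_normalizer hG hk g.2⟩ : G)⁻¹ = v from Subtype.ext hve.symm]
  · obtain ⟨v, hv, hve⟩ := key g⁻¹ (inv_mem hg) _ hu
    rwa [show u = v from Subtype.ext (by
      have hve' : (v : X) = k * ((g⁻¹ : G) : X) * k⁻¹ * (k * g * k⁻¹ * u * (k * g * k⁻¹)⁻¹) *
          (k * ((g⁻¹ : G) : X) * k⁻¹)⁻¹ := hve
      rw [hve', Subgroup.coe_inv]; group)]

theorem le_normalizer_map_centralizer {K : Subgroup X} {U : Subgroup ↥G}
    (hG : K ≤ Subgroup.normalizer (G : Set X))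
    (hU : K ≤ Subgroup.normalizer ((U.map G.subtype : Subgroup X) : Set X)) :
    K ≤ Subgroup.normalizer (((Subgroup.centralizer (U : Set G)).map G.subtype : Subgroup X) : Set X) := by
  have e : (Subgroup.centralizer (U : Set G)).map G.subtype =
      G ⊓ Subgroup.centralizer ((U.map G.subtype : Subgroup X) : Set X) := by
    ext x
    constructor
    · rintro ⟨g, hg, rfl⟩
      refine ⟨g.2, Subgroup.mem_centralizer_iff.mpr ?_⟩
      rintro _ ⟨u, hu, rfl⟩
      exact congrArg Subtype.val (Subgroup.mem_centralizer_iff.mp hg u hu)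
    · rintro ⟨hxG, hx⟩
      exact ⟨⟨x, hxG⟩, Subgroup.mem_centralizer_iff.mpr fun u hu =>
        Subtype.ext (Subgroup.mem_centralizer_iff.mp hx _ ⟨u, hu, rfl⟩), rfl⟩
  rw [e]
  exact le_normalizer_inf' hG (le_normalizer_centralizer hU)

theorem Ctx.exists_not_nilpotent (c : Ctx q A G) {p : ℕ} [Fact p.Prime] (hp2 : p ≠ 2)
    (hpG : p ∣ Nat.card G) :
    ∃ K : Subgroup X, K ≤ G ∧ A ≤ Subgroup.normalizer (K : Set X) ∧ K ≠ G ∧ ¬ Group.IsNilpotent K := by
  by_contra hcon
  have hnil : ∀ K : Subgroup X, K ≤ G → A ≤ Subgroup.normalizer (K : Set X) → K ≠ G →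
      Group.IsNilpotent K := fun K h1 h2 h3 => by_contra fun h => hcon ⟨K, h1, h2, h3, h⟩
  obtain ⟨P, hP, -⟩ := c.exists_sylow le_rfl c.hyp.norm p
  have hAG := c.hyp.norm
  have hPne : (P : Subgroup G) ≠ ⊥ := P.ne_bot_of_dvd_card hpG
  -- a nontrivial invariant subgroup of `P` is not normalised by `G`
  have hprop : ∀ U : Subgroup ↥G, U ≤ P → U ≠ ⊥ →
      A ≤ Subgroup.normalizer ((U.map G.subtype : Subgroup X) : Set X) → ¬ U.Normal := by
    intro U hUP hU hAU hn
    have hsol : Group.IsSolvable (U.map G.subtype : Subgroup X) :=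
      isSolvable_of_isPGroup ((P.isPGroup'.to_le hUP).map _)
    rcases c.normal (U.map G.subtype) (Subgroup.map_subtype_le _) hAU
      (le_normalizer_of_conj_mem (by
        rintro g hg _ ⟨u, hu, rfl⟩
        exact ⟨⟨g, hg⟩ * u * ⟨g, hg⟩⁻¹, hn.conj_mem u hu _, rfl⟩)) with h | h
    · exact hU ((Subgroup.map_eq_bot_iff_of_injective _ G.subtype_injective).mp h)
    · exact c.ne_top_of_solvable hsol h
  have hnpc : ∀ K : Subgroup ↥G, A ≤ Subgroup.normalizer ((K.map G.subtype : Subgroup X) : Set X) →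
      K ≠ ⊤ → Cfsg.HasNormalPComplement p ↥K := by
    intro K hAK hK
    haveI : Group.IsNilpotent (K.map G.subtype : Subgroup X) :=
      hnil _ (Subgroup.map_subtype_le _) hAK fun e => hK (by
        rw [← Subgroup.comap_map_eq_self_of_injective G.subtype_injective K, e]
        exact Subgroup.subgroupOf_self G)
    haveI : Group.IsNilpotent ↥K :=
      Group.nilpotent_of_mulEquiv (K.equivMapOfInjective G.subtype G.subtype_injective).symm
    exact CfsgLib.Schmidt.hasNormalPComplement_of_nilpotent p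
  have hctrA : A ≤ Subgroup.normalizer
      (((CfsgLib.ThompsonComplement.ctr (P : Subgroup G)).map G.subtype : Subgroup X) : Set X) := by
    rw [← CfsgLib.ThompsonComplement.ctr_map _ G.subtype_injective]
    exact hP.trans (CfsgLib.ThompsonComplement.normalizer_le_normalizer_ctr _)
  have hjA : A ≤ Subgroup.normalizer
      (((CfsgLib.ThompsonComplement.jSub p (P : Subgroup G)).map G.subtype : Subgroup X) : Set X) := by
    rw [← CfsgLib.ThompsonComplement.jSub_map _ G.subtype_injective]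
    exact hP.trans (CfsgLib.ThompsonComplement.normalizer_le_normalizer_jSub _)
  have hne1 : CfsgLib.ThompsonComplement.ctr (P : Subgroup G) ≠ ⊥ :=
    CfsgLib.ThompsonComplement.center_ne_bot P.isPGroup' hPne
  have hne2 : CfsgLib.ThompsonComplement.jSub p (P : Subgroup G) ≠ ⊥ :=
    CfsgLib.ThompsonComplement.jSub_ne_bot (p := p) dvd_rfl P.isPGroup' hPne
  have hN : Cfsg.HasNormalPComplement p G := by
    refine CfsgLib.ThompsonComplement.thompson_complement (m := p) dvd_rfl P (Or.inl hp2)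
      (hnpc _ (le_normalizer_map_centralizer hAG hctrA) fun e => ?_)
      (hnpc _ (le_normalizer_map_normalizer hAG hjA) fun e => ?_)
    · refine hprop _ (CfsgLib.ThompsonComplement.ctr_le _) hne1 hctrA ⟨fun u hu g => ?_⟩
      have hg : g ∈ Subgroup.centralizer
          (CfsgLib.ThompsonComplement.ctr (P : Subgroup G) : Set G) := e ▸ Subgroup.mem_top g
      rwa [← Subgroup.mem_centralizer_iff.mp hg u hu, mul_inv_cancel_right]
    · exact hprop _ (CfsgLib.ThompsonComplement.jSub_le _) hne2 hjA (Subgroup.normalizer_eq_top_iff.mp e)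
  obtain ⟨P', N, hNn, hNc⟩ := hN
  haveI := hNn
  set O := Cfsg.pPrimeCore p ↥G
  have hNp : ¬ p ∣ Nat.card N := by
    intro hd
    refine P'.not_dvd_index ?_
    rwa [Subgroup.IsComplement'.index_eq_card hNc]
  have hNO : N ≤ O := CfsgLib.Constrained.le_pPrimeCore_of_not_dvd hNn hNp
  rcases c.normal (O.map G.subtype) (Subgroup.map_subtype_le _)
    (hAG.trans (le_normalizer_map_of_char fun e => CfsgLib.Constrained.pPrimeCore_map e p))
    (Subgroup.le_normalizer.trans (le_normalizer_map_of_char fun e => CfsgLib.Constrained.pPrimeCore_map e p))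
    with h | h
  · have hN1 : N = ⊥ :=
      le_bot_iff.mp (hNO.trans ((Subgroup.map_eq_bot_iff_of_injective _ G.subtype_injective).mp h).le)
    rw [hN1] at hNc
    exact c.nsol (isSolvable_of_isPGroup (p := p) (IsPGroup.of_equiv
      (G := (P' : Subgroup G)) P'.isPGroup'
      ((MulEquiv.subgroupCongr (Subgroup.isComplement'_bot_left.mp hNc)).trans Subgroup.topEquiv)))
  · have hO : O = ⊤ := by
      rw [← Subgroup.comap_map_eq_self_of_injective G.subtype_injective O, h]
      exact Subgroup.subgroupOf_self G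
    refine CfsgLib.Constrained.pPrimeCore_not_dvd (G := ↥G) (p := p) ?_
    show p ∣ Nat.card O
    rw [hO, Subgroup.card_top]
    exact hpG

end CfsgLib.AbelianFix
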