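import Cfsg.Agent.AbelianFix.NonStar
import Cfsg.Agent.AbelianFix.Nilpotent

/-!
The endgame: all maximal invariant subgroups are `Star`, one of them is not nilpotent, contradiction.
-/

set_option autoImplicit false

namespace CfsgLib.AbelianFix

open CfsgLib.Coprime

universe u

variable {X : Type u} [Group X] [Finite X] {q : ℕ} {A G M : Subgroup X}

omit [Finite X] in
theorem isPGroup_of_forall_pow {s : ℕ} {B : Subgroup X} (h : ∀ x ∈ B, ∃ k : ℕ, x ^ s ^ k = 1) :
    IsPGroup s B := fun x => by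
  obtain ⟨k, hk⟩ := h x x.2
  exact ⟨k, Subtype.ext hk⟩

/-- The `s`-elements of an abelian subgroup. -/
def primePart (K : Subgroup X) (hK : IsMulCommutative K) (s : ℕ) : Subgroup X where
  carrier := {x | x ∈ K ∧ ∃ k : ℕ, x ^ s ^ k = 1}
  mul_mem' := by
    rintro x y ⟨hx, i, hi⟩ ⟨hy, j, hj⟩
    refine ⟨mul_mem hx hy, i + j, ?_⟩
    have hc : Commute x y := haveI := hK; setLike_mul_comm (s := K) hx hy
    rw [hc.mul_pow, pow_add, pow_mul, hi, one_pow, one_mul, mul_comm, pow_mul, hj, one_pow]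
  one_mem' := ⟨one_mem K, 0, one_pow _⟩
  inv_mem' := by
    rintro x ⟨hx, i, hi⟩
    exact ⟨inv_mem hx, i, by rw [inv_pow, hi, inv_one]⟩

theorem le_normalizer_primePart {K L : Subgroup X} (hK : IsMulCommutative K) (s : ℕ)
    (hL : L ≤ Subgroup.normalizer (K : Set X)) :
    L ≤ Subgroup.normalizer ((primePart K hK s : Subgroup X) : Set X) :=
  le_normalizer_of_conj_mem fun l hl x hx => by
    obtain ⟨hxK, k, hk⟩ := hx
    exact ⟨conj_mem_of_le_normalizer hL hl hxK, k, by rw [conj_pow, hk]; group⟩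

theorem exists_prime_power_notMem {F : Subgroup X} {x : X} (hx : x ∉ F) :
    ∃ y ∈ Subgroup.zpowers x, y ∉ F ∧ ∃ s : ℕ, s.Prime ∧ ∃ k : ℕ, y ^ s ^ k = 1 := by
  by_contra hc
  push Not at hc
  have htop : F.subgroupOf (Subgroup.zpowers x) = ⊤ :=
    CfsgLib.Constrained.eq_top_of_forall_sylow_le _ fun s hs => by
      haveI := Fact.mk hs
      obtain ⟨P⟩ : Nonempty (Sylow s (Subgroup.zpowers x)) := inferInstance
      refine ⟨P, fun y hy => ?_⟩
      obtain ⟨k, hk⟩ := P.isPGroup' ⟨y, hy⟩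
      show (y : X) ∈ F
      by_contra hyF
      exact hc y y.2 hyF s hs k (congrArg (fun z : (P : Subgroup (Subgroup.zpowers x)) => ((z : Subgroup.zpowers x) : X)) hk)
  exact hx (Subgroup.subgroupOf_eq_top.mp htop (Subgroup.mem_zpowers x))

theorem Ctx.false_of_not_nilpotent (c : Ctx q A G) (hM : IsMax A G M) (hMn : ¬ Group.IsNilpotent M) :
    False := by
  have hMF : ¬ M ≤ fit M := fun h => hMn
    (haveI := isNilpotent_fit M; le_antisymm h (fit_le M) ▸ (inferInstance : Group.IsNilpotent (fit M)))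
  obtain ⟨a, ha, ha1, hFa⟩ := (c.hypM hM).exists_fix_not_le hMF
  set Fa := M ⊓ Subgroup.centralizer ({a} : Set X) with hFadef
  obtain ⟨x₀, hx₀, hx₀F⟩ := SetLike.not_le_iff_exists.mp hFa
  obtain ⟨x, hxz, hxF, s, hs, hxs⟩ := exists_prime_power_notMem hx₀F
  have hxFa : x ∈ Fa := Subgroup.zpowers_le.mpr hx₀ hxz
  haveI := Fact.mk hs
  have hFac : IsMulCommutative Fa := (c.hypM hM).isMulCommutative_fix ha ha1
  set B := primePart Fa hFac s with hB
  have hBM : B ≤ M := fun y hy => hy.1.1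
  have hBA : A ≤ Subgroup.normalizer (B : Set X) :=
    le_normalizer_primePart hFac s ((c.hypM hM).norm_fix ha)
  have hBs : IsPGroup s B := isPGroup_of_forall_pow fun y hy => hy.2
  obtain ⟨r, hr, hrs, hBQ⟩ : ∃ r : ℕ, r.Prime ∧ r ≠ s ∧ ¬ B ≤ Subgroup.centralizer (core r M : Set X) := by
    by_contra hc
    push Not at hc
    exact hxF (((c.le_core_of_centralize hM hs hBM hBs fun p hp hps => hc p hp hps).trans
      (core_le_fit hs M)) (show x ∈ B from ⟨hxFa, hxs⟩))
  haveI := Fact.mk hr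
  set Q := core r M with hQ
  have hQne : Q ≠ ⊥ := fun e => hBQ fun y _ => Subgroup.mem_centralizer_iff.mpr fun w hw => by
    rw [e, SetLike.mem_coe, Subgroup.mem_bot] at hw
    rw [hw, one_mul, mul_one]
  have hQG : Q ≤ G := (core_le r M).trans hM.le
  have hQr : IsPGroup r Q := isPGroup_core hr M
  have hQA : A ≤ Subgroup.normalizer (Q : Set X) := Ctx.norm_coreM hM r
  have hne1 : ∀ b : X, b ∉ Subgroup.zpowers a → b ≠ 1 := fun b hba e => hba (e ▸ one_mem _)
  have hUne : ∀ b ∈ A, b ∉ Subgroup.zpowers a → Q ⊓ Subgroup.centralizer ({b} : Set X) ≠ ⊥ := by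
    intro b hb hba e
    obtain ⟨v, hv, hv1, hvb⟩ := exists_fixed_of_not_le c.hyp.prime (c.hyp.exp b hb) (V := Q) (B := B)
      (isSolvable_of_isPGroup hQr) (fun hd => c.hyp.cop (hd.trans (Subgroup.card_dvd_of_le hQG)))
      ⟨⟨fun u v => Subtype.ext (haveI := hFac; setLike_mul_comm (s := Fa) u.2.1 v.2.1)⟩⟩
      (hBM.trans (Ctx.norm_coreM' r M)) (hQA hb) (hBA hb)
      (fun m hm hbm => c.eq_one_of_two ha ha1 hb hba (hM.le (hBM hm)) (mem_centralizer_one.mp hm.1.2) hbm)
      (IsPGroup.coprime_card_of_ne s r (Ne.symm hrs) _ _ hBs hQr)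
      (fun hle => hBQ (Subgroup.le_centralizer_iff.mp hle))
    exact hv1 (Subgroup.mem_bot.mp (e ▸ Subgroup.mem_inf.mpr ⟨hv, mem_centralizer_one.mpr hvb⟩))
  have hUA : ∀ b ∈ A, A ≤ Subgroup.normalizer
      ((Q ⊓ Subgroup.centralizer ({b} : Set X) : Subgroup X) : Set X) := fun b hb =>
    le_normalizer_inf' hQA (c.hyp.norm_centralizer_one hb)
  have hCb : ∀ b ∈ A, b ≠ 1 → G ⊓ Subgroup.centralizer ({b} : Set X) ≤
      G ⊓ Subgroup.centralizer ((Q ⊓ Subgroup.centralizer ({b} : Set X) : Subgroup X) : Set X) :=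
    fun b hb hb1 y hy => ⟨hy.1, Subgroup.mem_centralizer_iff.mpr fun w hw => c.hyp.abel b hb hb1 w
      (hQG hw.1) y hy.1 (mem_centralizer_one.mp hw.2) (mem_centralizer_one.mp hy.2)⟩
  by_cases hall : ∀ b ∈ A, b ∉ Subgroup.zpowers a →
      G ⊓ Subgroup.centralizer ((Q ⊓ Subgroup.centralizer ({b} : Set X) : Subgroup X) : Set X) ≤ M
  · exact c.covering_false hM ha ha1 (fun b hb hba => (hCb b hb (hne1 b hba)).trans (hall b hb hba))
      (fun e => hxF ((Subgroup.mem_bot.mp (e ▸ hxFa : x ∈ (⊥ : Subgroup X))).symm ▸ one_mem _))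
  push Not at hall
  obtain ⟨b, hb, hba, hK⟩ := hall
  set U := Q ⊓ Subgroup.centralizer ({b} : Set X) with hU
  have hUM : U ≤ M := inf_le_left.trans (core_le r M)
  obtain ⟨H, hKH, hH⟩ := c.exists_max (H := G ⊓ Subgroup.centralizer (U : Set X)) inf_le_left
    (le_normalizer_inf' c.hyp.norm (le_normalizer_centralizer (hUA b hb)))
    (c.centralizer_ne hM hUM (hUA b hb) (hUne b hb hba))
  have hHM : H ≠ M := fun e => hK (e ▸ hKH)
  have hUH : U ≤ H := fun u hu => hKH ((hCb b hb (hne1 b hba)) ⟨hQG hu.1, hu.2⟩)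
  set W := wPart r M with hW
  have hW1 : W ≠ ⊥ := c.wPart_ne_bot hM hr hQne
  have hWH : W ≤ H := (le_inf ((wPart_le r M).trans hM.le) ((wPart_le_centralizer_fit r M).trans
    (Subgroup.centralizer_le (inf_le_left.trans (core_le_fit hr M))))).trans hKH
  have hstar := c.star hH
  have hW'M : ∀ t : ℕ, t.Prime → wPart t H ≤ M := fun t ht =>
    (le_inf ((wPart_le t H).trans hH.le)
      ((Subgroup.le_centralizer_iff.mp (hstar t ht)).trans (Subgroup.centralizer_le hWH))).trans
      (c.centralizer_wPart_le hM hW1)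
  have hQH : Q ≤ H := by
    by_cases hex : ∃ t : ℕ, t.Prime ∧ t ≠ r ∧ core t H ≠ ⊥
    · obtain ⟨t, ht, htr, hXt⟩ := hex
      haveI := Fact.mk ht
      set W' := wPart t H with hW'
      have hW'1 : W' ≠ ⊥ := c.wPart_ne_bot hH ht hXt
      have hW'H : H ≤ Subgroup.centralizer (W' : Set X) := hstar t ht
      have hcop : (Nat.card W').Coprime r := by
        obtain ⟨k, hk⟩ := IsPGroup.iff_card.mp ((isPGroup_core ht H).to_le (wPart_le_core t H))
        rw [hk]
        exact Nat.Coprime.pow_left k ((Nat.coprime_primes ht hr).mpr htr)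
      have h1 : W' ≤ Subgroup.centralizer (Q : Set X) :=
        CfsgLib.GlaubermanZJ.thompson_axb hQr (hQr.to_le (inf_le_left : U ≤ Q))
          ((inf_le_left : U ≤ Q).trans Subgroup.le_normalizer) ((hW'M t ht).trans (Ctx.norm_coreM' r M))
          (Subgroup.le_centralizer_iff.mp (hUH.trans hW'H)) hcop
          (((inf_le_inf_right _ hQG).trans hKH).trans hW'H)
      exact (le_inf hQG (Subgroup.le_centralizer_iff.mp h1)).trans (c.centralizer_wPart_le hH hW'1)
    · push Not at hex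
      set R := core r H with hR
      have hfR : fit H ≤ R := fit_le_iff.mpr fun p hp => by
        rcases eq_or_ne p r with rfl | hpr
        · exact le_rfl
        · rw [hex p hp hpr]; exact bot_le
      have hR1 : R ≠ ⊥ := by
        obtain ⟨p, hp, hp1⟩ := c.exists_coreM_ne_bot hH
        intro e
        rcases eq_or_ne p r with rfl | hpr
        · exact hp1 e
        · exact hp1 (hex p hp hpr)
      obtain ⟨T₀, hT₀, hTmax⟩ := c.exists_sylow le_rfl c.hyp.norm r
      obtain ⟨S₀, hS₀, hSmax⟩ := c.exists_sylow hH.le hH.norm r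
      set T := (T₀ : Subgroup G).map G.subtype with hT
      set S := (S₀ : Subgroup H).map H.subtype with hS
      have hTG : T ≤ G := Subgroup.map_subtype_le _
      have hRT : R ≤ T := hTmax _ ((core_le r H).trans hH.le) (Ctx.norm_coreM hH r) (isPGroup_core hr H)
      have hRS : R ≤ S := hSmax _ (core_le r H) (Ctx.norm_coreM hH r) (isPGroup_core hr H)
      have hSR : S ≤ R := le_core (Subgroup.map_subtype_le _)
        (c.le_normalizer_of_fit_le hH (hfR.trans hRS) (Subgroup.map_subtype_le _)) (S₀.isPGroup'.map _)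
      have hRTeq : R = T := eq_of_normalizer_le (T₀.isPGroup'.map _) hRT ((hSmax _
        ((inf_le_inf_right _ hTG).trans
          (c.normalizer_eq hH (core_le r H) (Ctx.norm_coreM hH r) (Ctx.norm_coreM' r H) hR1).le)
        (le_normalizer_inf' hT₀ ((Ctx.norm_coreM hH r).trans Subgroup.le_normalizer))
        ((T₀.isPGroup'.map _).to_le inf_le_left)).trans hSR)
      exact ((hTmax _ hQG hQA hQr).trans hRTeq.ge).trans (core_le r H)
  have hFH : fit M ≤ H := fit_le_iff.mpr fun p hp => by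
    rcases eq_or_ne p r with rfl | hpr
    · exact hQH
    · exact (le_inf ((core_le p M).trans hM.le)
        ((commute_core hp hr hpr M).trans (Subgroup.centralizer_le inf_le_left))).trans hKH
  obtain ⟨t, ht, hX1, -, -, hXW⟩ := c.exceptional hM hH hFH hHM
  exact c.wPart_ne_bot hH ht hX1 (le_bot_iff.mp ((le_inf (wPart_le_core t H)
    ((Subgroup.le_centralizer_iff.mp (hstar t ht)).trans (Subgroup.centralizer_le hWH))).trans
    (hXW r hW1).le))

end CfsgLib.AbelianFix
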