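import Cfsg.Agent.AbelianFix.Endgame
import Mathlib.GroupTheory.FiniteAbelian.Basic

/-!
# Ward's theorem

If an elementary abelian group of order `q²` acts coprimely on a finite group with all fixed-point
subgroups of nonidentity elements abelian, the group is solvable.  For `q = 2` the group has odd order.
-/

set_option autoImplicit false

namespace CfsgLib.AbelianFix

open CfsgLib.Coprime

universe u

theorem false_of_ctx {X : Type u} [Group X] [Finite X] {q : ℕ} {A G : Subgroup X} (c : Ctx q A G) :
    False := by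
  -- an odd prime divisor
  obtain ⟨p, hp, hp2, hpG⟩ : ∃ p : ℕ, p.Prime ∧ p ≠ 2 ∧ p ∣ Nat.card G := by
    by_contra hc
    push Not at hc
    haveI := Fact.mk Nat.prime_two
    exact c.nsol (isSolvable_of_isPGroup (p := 2) (IsPGroup.of_card
      (Nat.eq_prime_pow_of_unique_prime_dvd Nat.card_pos.ne' fun {d} hd hdd => by_contra fun hne => hc d hd hne hdd)))
  haveI := Fact.mk hp
  obtain ⟨K, hKG, hAK, hKne, hKn⟩ := c.exists_not_nilpotent hp2 hpG
  obtain ⟨M, hKM, hM⟩ := c.exists_max hKG hAK hKne
  exact c.false_of_not_nilpotent hM fun h => hKn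
    (haveI := h; Group.nilpotent_of_mulEquiv (Subgroup.subgroupOfEquivOfLe hKM))

theorem isSolvable_of_hyp {q : ℕ}
    (hFT : q = 2 → ∀ {Y : Type u} [Group Y] [Finite Y], Odd (Nat.card Y) → Group.IsSolvable Y) :
    ∀ (n : ℕ) {X : Type u} [Group X] [Finite X] {A G : Subgroup X}, Nat.card G = n → Hyp q A G →
      Group.IsSolvable G := by
  intro n
  induction n using Nat.strong_induction_on with
  | _ n ih =>
  intro X _ _ A G hn h
  by_cases hq : q = 2
  · refine hFT hq ?_
    rw [← Nat.not_even_iff_odd, even_iff_two_dvd, ← hq]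
    exact h.cop
  by_contra hns
  refine false_of_ctx (q := q) (A := A) (G := G) ⟨h, ?_, hns, ?_, ?_⟩
  · have := h.prime.two_le
    omega
  · intro H hHG hAH hne
    exact ih _ (hn ▸ Set.Finite.card_lt_card (Set.toFinite _) (lt_of_le_of_ne hHG hne : H < G)) rfl (h.mono hHG hAH)
  · intro N hNG hAN hGN
    by_contra hc
    rw [not_or] at hc
    obtain ⟨hN1, hNne⟩ := hc
    have hN := ih _ (hn ▸ Set.Finite.card_lt_card (Set.toFinite _) (lt_of_le_of_ne hNG hNne : N < G)) rfl
      (h.mono hNG hAN)
    set Y := G ⊔ A with hY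
    have hYN : Y ≤ Subgroup.normalizer (N : Set X) := sup_le hGN hAN
    haveI : (N.subgroupOf Y).Normal :=
      (Subgroup.normal_subgroupOf_iff_le_normalizer (hNG.trans le_sup_left)).mpr hYN
    set N' := N.subgroupOf Y
    set G' := G.subgroupOf Y
    set f := QuotientGroup.mk' N' with hf
    have hG' : Nat.card G' = n := by
      rw [Nat.card_congr (Subgroup.subgroupOfEquivOfLe (le_sup_left : G ≤ Y)).toEquiv, hn]
    have hN'G : N' ≤ G' := fun x hx => hNG hx
    have hker : (f.subgroupMap G').ker = N'.subgroupOf G' := by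
      ext x
      rw [MonoidHom.mem_ker, Subgroup.mem_subgroupOf, Subtype.ext_iff]
      exact QuotientGroup.eq_one_iff (N := N') (x : Y)
    have hlt : Nat.card (G'.map f) < n := by
      have h1 := Subgroup.card_mul_index (f.subgroupMap G').ker
      rw [Subgroup.index_ker, MonoidHom.range_eq_top.mpr (f.subgroupMap_surjective G'), Subgroup.card_top,
        hker, Nat.card_congr (Subgroup.subgroupOfEquivOfLe hN'G).toEquiv,
        Nat.card_congr (Subgroup.subgroupOfEquivOfLe (hNG.trans le_sup_left)).toEquiv, hG'] at h1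
      have h2 : 1 < Nat.card N := by
        haveI := (Subgroup.nontrivial_iff_ne_bot N).mpr hN1
        exact Finite.one_lt_card
      have h3 : 0 < Nat.card (G'.map f) := Nat.card_pos
      calc Nat.card (G'.map f) < Nat.card N * Nat.card (G'.map f) := (Nat.lt_mul_iff_one_lt_left h3).mpr h2
        _ = n := h1
    have hq' := ih _ hlt rfl ((h.subgroupOf (le_sup_right : A ≤ Y) (le_sup_left : G ≤ Y)).quotient N' hN'G)
    have hker' : Group.IsSolvable (f.subgroupMap G').ker := by
      rw [hker]
      haveI := hN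
      exact Group.isSolvable_of_isSolvable_injective
        (f := ((Subgroup.subgroupOfEquivOfLe hN'G).trans
          (Subgroup.subgroupOfEquivOfLe (hNG.trans le_sup_left))).toMonoidHom)
        ((Subgroup.subgroupOfEquivOfLe hN'G).trans
          (Subgroup.subgroupOfEquivOfLe (hNG.trans le_sup_left))).injective
    haveI := hq'
    haveI := hker'
    haveI : Group.IsSolvable G' :=
      Group.isSolvable_of_ker_le_range (f.subgroupMap G').ker.subtype (f.subgroupMap G')
        (by rw [Subgroup.range_subtype])
    exact hns (Group.isSolvable_of_isSolvable_injective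
      (f := (Subgroup.subgroupOfEquivOfLe (le_sup_left : G ≤ Y)).symm.toMonoidHom)
      (Subgroup.subgroupOfEquivOfLe (le_sup_left : G ≤ Y)).symm.injective)

/-- The external form. -/
theorem isSolvable_of_abelian_fixed_points.{v, w} {A : Type v} {G : Type w} [Group A] [Finite A] [Group G] [Finite G]
    [MulDistribMulAction A G] {q : ℕ}
    (hFT : q = 2 → ∀ {Y : Type (max v w)} [Group Y] [Finite Y], Odd (Nat.card Y) → Group.IsSolvable Y)
    (hq : q.Prime) (hA : Nat.card A = q ^ 2) (hnc : ¬ IsCyclic A) (hcop : ¬ q ∣ Nat.card G)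
    (h : ∀ a : A, a ≠ 1 → IsMulCommutative ↥(FixedPoints.subgroup (Subgroup.zpowers a) G)) :
    Group.IsSolvable G := by
  haveI := Fact.mk hq
  set φ := MulDistribMulAction.toMulAut A G
  haveI := finite_semidirect φ
  set A' : Subgroup (G ⋊[φ] A) := (SemidirectProduct.inr (φ := φ)).range with hA'
  set G' : Subgroup (G ⋊[φ] A) := (⊤ : Subgroup G).map SemidirectProduct.inl with hG'
  have hcomm : ∀ a b : A, a * b = b * a := IsPGroup.commutative_of_card_eq_prime_sq hA
  have hexp : ∀ a : A, a ^ q = 1 := by
    intro a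
    obtain ⟨k, hk2, hk⟩ := (Nat.dvd_prime_pow hq).mp (hA ▸ orderOf_dvd_natCard a)
    rcases Nat.lt_or_ge k 2 with hk' | hk'
    · exact orderOf_dvd_iff_pow_eq_one.mp (hk ▸ (pow_dvd_pow q (by omega : k ≤ 1)).trans (pow_one q).dvd)
    · refine absurd (isCyclic_of_orderOf_eq_card a ?_) hnc
      rw [hk, show k = 2 by omega, hA]
  have hH : Hyp q A' G' := by
    refine ⟨hq, ⟨⟨?_⟩⟩, ?_, ?_, inr_le_normalizer_map_inl φ (fun _ _ _ => Subgroup.mem_top _), ?_, ?_⟩
    · rintro ⟨_, a, rfl⟩ ⟨_, b, rfl⟩
      apply Subtype.ext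
      show SemidirectProduct.inr a * SemidirectProduct.inr b = SemidirectProduct.inr b * SemidirectProduct.inr a
      rw [← map_mul, ← map_mul, hcomm]
    · rintro _ ⟨a, rfl⟩
      rw [← map_pow, hexp, map_one]
    · rw [card_range_inr, hA]
    · rw [card_map_inl, Subgroup.card_top]
      exact hcop
    · rintro _ ⟨a, rfl⟩ ha1 _ ⟨x, -, rfl⟩ _ ⟨y, -, rfl⟩ hx hy
      have hfix : ∀ z : G, SemidirectProduct.inr (φ := φ) a * SemidirectProduct.inl z =
          SemidirectProduct.inl z * SemidirectProduct.inr a →
          z ∈ FixedPoints.subgroup (Subgroup.zpowers a) G := by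
        intro z hz
        have h1 : a • z = z := by
          apply SemidirectProduct.inl_injective (φ := φ)
          show SemidirectProduct.inl (φ a z) = _
          rw [SemidirectProduct.inl_aut, hz, mul_assoc, map_inv, mul_inv_cancel, mul_one]
        rintro ⟨b, hb⟩
        show b • z = z
        have hle : Subgroup.zpowers a ≤ MulAction.stabilizer A z := Subgroup.zpowers_le.mpr h1
        exact hle hb
      haveI := h a (fun e => ha1 (by rw [e, map_one]))
      rw [← map_mul, ← map_mul,
        setLike_mul_comm (s := FixedPoints.subgroup (Subgroup.zpowers a) G) (hfix x hx) (hfix y hy)]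
  haveI := isSolvable_of_hyp (q := q) (fun hq2 => hFT hq2) _ rfl hH
  exact Group.isSolvable_of_isSolvable_injective
    (f := ((SemidirectProduct.inl (φ := φ)).codRestrict G' fun g => ⟨g, Subgroup.mem_top _, rfl⟩))
    fun x y hxy => SemidirectProduct.inl_injective (congrArg Subtype.val hxy)

end CfsgLib.AbelianFix
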