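import Cfsg.Agent.AbelianFix.Exceptional
import Cfsg.Agent.AbelianFix.Covering
import Cfsg.Agent.ThompsonComplement.Main

/-!
In a minimal counterexample every maximal invariant subgroup centralises the central parts `W` of its
cores.
-/

set_option autoImplicit false

namespace CfsgLib.AbelianFix

open CfsgLib.Coprime

universe u

variable {X : Type u} [Group X] [Finite X]

/-- The central parts of all cores of `M` are central in `M`. -/
def Star (M : Subgroup X) : Prop :=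
  ∀ r : ℕ, r.Prime → M ≤ Subgroup.centralizer (wPart r M : Set X)

variable {q : ℕ} {A G M : Subgroup X}

theorem Ctx.centralizer_ne (c : Ctx q A G) (hM : IsMax A G M) {U : Subgroup X} (hUM : U ≤ M)
    (hAU : A ≤ Subgroup.normalizer (U : Set X)) (hU : U ≠ ⊥) :
    G ⊓ Subgroup.centralizer (U : Set X) ≠ G := fun e => by
  have hGU : G ≤ Subgroup.normalizer (U : Set X) := le_normalizer_of_conj_mem fun g hg u hu => by
    rwa [← Subgroup.mem_centralizer_iff.mp (inf_eq_left.mp e hg) u hu, mul_inv_cancel_right]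
  rcases c.normal U (hUM.trans hM.le) hAU hGU with h | h
  · exact hU h
  · exact hM.ne (le_antisymm hM.le (h ▸ hUM))

/-- The `s'`-elements and the `s`-elements of an abelian fixed-point group. -/
def primeToPart (K : Subgroup X) (hK : IsMulCommutative K) {s : ℕ} (_hs : s.Prime) : Subgroup X where
  carrier := {x | x ∈ K ∧ (orderOf x).Coprime s}
  mul_mem' := by
    rintro x y ⟨hx, hxs⟩ ⟨hy, hys⟩
    exact ⟨mul_mem hx hy, (Nat.Coprime.mul_left hxs hys).coprime_dvd_left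
      (Commute.orderOf_mul_dvd_mul_orderOf (haveI := hK; setLike_mul_comm (s := K) hx hy))⟩
  one_mem' := ⟨one_mem K, by simp⟩
  inv_mem' := by
    rintro x ⟨hx, hxs⟩
    exact ⟨inv_mem hx, by rwa [orderOf_inv]⟩

theorem primeToPart_le {K : Subgroup X} (hK : IsMulCommutative K) {s : ℕ} (hs : s.Prime) :
    primeToPart K hK hs ≤ K := fun _ hx => hx.1

theorem le_normalizer_primeToPart {K L : Subgroup X} (hK : IsMulCommutative K) {s : ℕ} (hs : s.Prime)
    (hL : L ≤ Subgroup.normalizer (K : Set X)) :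
    L ≤ Subgroup.normalizer ((primeToPart K hK hs : Subgroup X) : Set X) :=
  le_normalizer_of_conj_mem fun l hl x hx => ⟨conj_mem_of_le_normalizer hL hl hx.1, by
    have e : orderOf (l * x * l⁻¹) = orderOf x :=
      (MulAut.conj l).orderOf_eq x
    rw [e]; exact hx.2⟩

theorem card_primeToPart_coprime {K : Subgroup X} (hK : IsMulCommutative K) {s : ℕ} (hs : s.Prime) :
    (Nat.card (primeToPart K hK hs)).Coprime s := by
  refine Nat.Coprime.symm ((hs.coprime_iff_not_dvd).mpr fun hd => ?_)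
  haveI := Fact.mk hs
  obtain ⟨x, hx⟩ := exists_prime_orderOf_dvd_card' s hd
  have h : (orderOf (x : X)).Coprime s := x.2.2
  rw [Subgroup.orderOf_coe, hx, Nat.coprime_self] at h
  exact hs.one_lt.ne' h

/-- The consequences of a non-central `W`. -/
theorem Ctx.non_star (c : Ctx q A G) (hM : IsMax A G M) (hns : ¬ Star M) :
    ∃ (H : Subgroup X) (a a₀ : X), IsMax A G H ∧ ¬ Star H ∧ a ∈ A ∧ a₀ ∈ A ∧
      (∀ b ∈ A, b ∉ Subgroup.zpowers a → b ∉ Subgroup.zpowers a₀ →
        G ⊓ Subgroup.centralizer ({b} : Set X) ≤ H) ∧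
      ∃ (Xs : Subgroup X) (e : X), e ∈ A ∧ Xs ⊓ M = ⊥ ∧
        ∀ b ∈ A, b ∉ Subgroup.zpowers e → ∃ x ∈ Xs, x ∈ G ∧ x ≠ 1 ∧ b * x = x * b := by
  simp only [Star, not_forall] at hns
  obtain ⟨r, hr, hnc⟩ := hns
  haveI := Fact.mk hr
  set W := wPart r M with hWdef
  have hW1 : W ≠ ⊥ := fun e => hnc fun x _ => Subgroup.mem_centralizer_iff.mpr fun w hw => by
    rw [e, SetLike.mem_coe, Subgroup.mem_bot] at hw
    rw [hw, one_mul, mul_one]
  have hWA : A ≤ Subgroup.normalizer (W : Set X) := le_normalizer_wPart r hM.norm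
  have hWM : M ≤ Subgroup.normalizer (W : Set X) := le_normalizer_wPart r Subgroup.le_normalizer
  have hWG : W ≤ G := (wPart_le r M).trans hM.le
  have hWc : IsMulCommutative W := isMulCommutative_wPart hr M
  have hWr : IsPGroup r W := (isPGroup_core hr M).to_le (wPart_le_core r M)
  have hWfit : W ≤ fit M := (wPart_le_core r M).trans (core_le_fit hr M)
  obtain ⟨a, ha, ha1, hFa⟩ := (c.hypM hM).exists_fix_not_le hnc
  set Fa := M ⊓ Subgroup.centralizer ({a} : Set X) with hFadef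
  have hFac : IsMulCommutative Fa := (c.hypM hM).isMulCommutative_fix ha ha1
  set B := primeToPart Fa hFac hr with hB
  have hBM : B ≤ M := (primeToPart_le hFac hr).trans inf_le_left
  have hBW : ¬ B ≤ Subgroup.centralizer (W : Set X) := by
    intro hle
    refine hFa fun x hx => ?_
    obtain ⟨n, m, hm, hxm⟩ := Nat.exists_eq_pow_mul_and_not_dvd (orderOf_pos x).ne' r hr.ne_one
    have hcop : (r ^ n).Coprime m := Nat.Coprime.pow_left n (hr.coprime_iff_not_dvd.mpr hm)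
    have h1 : x ^ r ^ n ∈ Subgroup.centralizer (W : Set X) := hle ⟨pow_mem hx _, by
      rw [orderOf_pow' x (pow_ne_zero n hr.ne_zero), hxm, Nat.gcd_mul_right_left,
        Nat.mul_div_cancel_left _ (pow_pos hr.pos n)]
      exact (hr.coprime_iff_not_dvd.mpr hm).symm⟩
    have h2 : x ^ m ∈ Subgroup.centralizer (W : Set X) := by
      rw [Subgroup.mem_centralizer_iff]
      intro w hw
      exact ((Subgroup.mem_centralizer_iff.mp (Subgroup.mem_inf.mp hw).2 (x ^ m)
        ⟨pow_mem hx.1 _, n, by rw [← pow_mul, mul_comm, ← hxm, pow_orderOf_eq_one]⟩)).symm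
    have e : x = (x ^ r ^ n) ^ Nat.gcdA (r ^ n) m * (x ^ m) ^ Nat.gcdB (r ^ n) m := by
      rw [← zpow_natCast x (r ^ n), ← zpow_natCast x m, ← zpow_mul, ← zpow_mul, ← zpow_add,
        ← Nat.gcd_eq_gcd_ab, hcop.gcd_eq_one, Nat.cast_one, zpow_one]
    rw [e]
    exact mul_mem (zpow_mem h1 _) (zpow_mem h2 _)
  have hBA : A ≤ Subgroup.normalizer (B : Set X) :=
    le_normalizer_primeToPart hFac hr ((c.hypM hM).norm_fix ha)
  have hBcop : (Nat.card B).Coprime (Nat.card W) := by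
    obtain ⟨k, hk⟩ := IsPGroup.iff_card.mp hWr
    rw [hk]
    exact Nat.Coprime.pow_right k (card_primeToPart_coprime hFac hr)
  have hWb : ∀ b ∈ A, b ∉ Subgroup.zpowers a → W ⊓ Subgroup.centralizer ({b} : Set X) ≠ ⊥ := by
    intro b hb hba e
    obtain ⟨v, hv, hv1, hvb⟩ := exists_fixed_of_not_le_abelian c.hyp.prime (c.hyp.exp b hb) (V := W) (B := B)
      hWc ⟨⟨fun x y => Subtype.ext (haveI := hFac; setLike_mul_comm (s := Fa) x.2.1 y.2.1)⟩⟩
      (hBM.trans hWM) (hWA hb) (hBA hb)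
      (fun m hm hbm => c.eq_one_of_two ha ha1 hb hba (hM.le (hBM hm))
        (mem_centralizer_one.mp hm.1.2) hbm) hBcop
      (fun hle => hBW (Subgroup.le_centralizer_iff.mp hle))
    exact hv1 (Subgroup.mem_bot.mp (e ▸ Subgroup.mem_inf.mpr ⟨hv, mem_centralizer_one.mpr hvb⟩))
  have hCb : ∀ b ∈ A, b ≠ 1 → G ⊓ Subgroup.centralizer ({b} : Set X) ≤
      G ⊓ Subgroup.centralizer ((W ⊓ Subgroup.centralizer ({b} : Set X) : Subgroup X) : Set X) :=
    fun b hb hb1 x hx => ⟨hx.1, Subgroup.mem_centralizer_iff.mpr fun w hw => c.hyp.abel b hb hb1 w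
      (hWG hw.1) x hx.1 (mem_centralizer_one.mp hw.2) (mem_centralizer_one.mp hx.2)⟩
  have hne1 : ∀ b : X, b ∉ Subgroup.zpowers a → b ≠ 1 := fun b hba e => hba (e ▸ one_mem _)
  have hWbA : ∀ b ∈ A, A ≤ Subgroup.normalizer
      ((W ⊓ Subgroup.centralizer ({b} : Set X) : Subgroup X) : Set X) := fun b hb =>
    le_normalizer_inf' hWA (c.hyp.norm_centralizer_one hb)
  -- fit M centralises W
  have hFW : ∀ b : X, fit M ≤
      G ⊓ Subgroup.centralizer ((W ⊓ Subgroup.centralizer ({b} : Set X) : Subgroup X) : Set X) :=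
    fun b => le_inf ((fit_le M).trans hM.le)
      ((Subgroup.le_centralizer_iff.mp (wPart_le_centralizer_fit r M)).trans
        (Subgroup.centralizer_le inf_le_left))
  by_cases hall : ∀ b ∈ A, b ∉ Subgroup.zpowers a →
      G ⊓ Subgroup.centralizer ((W ⊓ Subgroup.centralizer ({b} : Set X) : Subgroup X) : Set X) ≤ M
  · exact (c.covering_false hM ha ha1 (fun b hb hba => (hCb b hb (hne1 b hba)).trans (hall b hb hba))
      (fun e => hFa (by rw [hFadef, e]; exact bot_le))).elim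
  push Not at hall
  obtain ⟨b₀, hb₀, hb₀a, hK⟩ := hall
  have hWbM : ∀ b : X, W ⊓ Subgroup.centralizer ({b} : Set X) ≤ M := fun b =>
    inf_le_left.trans (wPart_le r M)
  have hex : ∀ b ∈ A, b ∉ Subgroup.zpowers a → ∃ Hb : Subgroup X,
      G ⊓ Subgroup.centralizer ((W ⊓ Subgroup.centralizer ({b} : Set X) : Subgroup X) : Set X) ≤ Hb ∧
        IsMax A G Hb := fun b hb hba =>
    c.exists_max inf_le_left (le_normalizer_inf' c.hyp.norm (le_normalizer_centralizer (hWbA b hb)))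
      (c.centralizer_ne hM (hWbM b) (hWbA b hb) (hWb b hb hba))
  obtain ⟨H, hKH, hH⟩ := hex b₀ hb₀ hb₀a
  have hHM : H ≠ M := fun e => hK (e ▸ hKH)
  have hFH : fit M ≤ H := (hFW b₀).trans hKH
  obtain ⟨t, ht, hX1, hD, hXM, hXW⟩ := c.exceptional hM hH hFH hHM
  haveI := Fact.mk ht
  have hrt : r ≠ t := by
    rintro rfl
    exact hW1 (le_bot_iff.mp (hD ▸ wPart_le_core r M))
  have hWH : W ≤ H := hWfit.trans hFH
  have hnsH : ¬ Star H := fun hstar => c.wPart_ne_bot hH ht hX1 (le_bot_iff.mp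
    ((le_inf (wPart_le_core t H) ((Subgroup.le_centralizer_iff.mp (hstar t ht)).trans
      (Subgroup.centralizer_le hWH))).trans (hXW r hW1).le))
  set Xt := core t H with hXt
  set V := Xt ⊓ Subgroup.centralizer (Xt : Set X) with hV
  have hXt_t : IsPGroup t Xt := isPGroup_core ht H
  have hVt : IsPGroup t V := hXt_t.to_le inf_le_left
  have hVH : H ≤ Subgroup.normalizer (V : Set X) :=
    le_normalizer_inf' (Ctx.norm_coreM' t H) (le_normalizer_centralizer (Ctx.norm_coreM' t H))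
  have hVA : A ≤ Subgroup.normalizer (V : Set X) :=
    le_normalizer_inf' (Ctx.norm_coreM hH t) (le_normalizer_centralizer (Ctx.norm_coreM hH t))
  have hVc : IsMulCommutative V :=
    ⟨⟨fun x y => Subtype.ext (Subgroup.mem_centralizer_iff.mp y.2.2 x x.2.1)⟩⟩
  have hV1 : V ≠ ⊥ := CfsgLib.ThompsonComplement.center_ne_bot hXt_t hX1
  have hVW : V ⊓ Subgroup.centralizer (W : Set X) = ⊥ :=
    le_bot_iff.mp ((inf_le_inf_right _ inf_le_left).trans (hXW r hW1).le)
  have hVG : V ≤ G := inf_le_left.trans ((core_le t H).trans hH.le)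
  have htwo : ∀ a₁ ∈ A, a₁ ≠ 1 → ∀ a₂ ∈ A, a₂ ∉ Subgroup.zpowers a₁ →
      V ⊓ Subgroup.centralizer ((W ⊓ Subgroup.centralizer ({a₁} : Set X) : Subgroup X) : Set X) = ⊥ →
      V ⊓ Subgroup.centralizer ((W ⊓ Subgroup.centralizer ({a₂} : Set X) : Subgroup X) : Set X) = ⊥ →
      False := by
    intro a₁ ha₁ ha₁1 a₂ ha₂ ha21 h1 h2
    refine hV1 (le_bot_iff.mp (le_trans (le_inf le_rfl (Subgroup.le_centralizer_iff.mp ?_)) h2.le))
    intro y hy
    refine mem_centralizer_internal hVc (M := W ⊓ Subgroup.centralizer ({a₁} : Set X))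
      ⟨⟨fun u v => Subtype.ext (haveI := hWc; setLike_mul_comm (s := W) u.2.1 v.2.1)⟩⟩
      c.hyp.prime (c.hyp.exp a₂ ha₂) ((inf_le_left.trans hWH).trans hVH) (hVA ha₂) (hWbA a₁ ha₁ ha₂)
      (fun m hm hbm => c.eq_one_of_two ha₁ ha₁1 ha₂ ha21 (hWG hm.1) (mem_centralizer_one.mp hm.2) hbm)
      h1 (hVH (hWH hy.1)) (mem_centralizer_one.mp hy.2) (fun m hm v _ => ?_) (fun v hv hbv => ?_)
    · have hmy : m * y = y * m := haveI := hWc; setLike_mul_comm (s := W) hm.1 hy.1
      calc y * (m * v * m⁻¹) * y⁻¹ = (y * m) * v * (y * m)⁻¹ := by group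
        _ = (m * y) * v * (m * y)⁻¹ := by rw [hmy]
        _ = m * (y * v * y⁻¹) * m⁻¹ := by group
    · exact c.hyp.abel a₂ ha₂ (fun e => ha21 (e ▸ one_mem _)) y (hWG hy.1) v (hVG hv)
        (mem_centralizer_one.mp hy.2) hbv
  obtain ⟨a₀, ha₀, ha₀spec⟩ : ∃ a₀ ∈ A, ∀ b ∈ A, b ∉ Subgroup.zpowers a → b ∉ Subgroup.zpowers a₀ →
      V ⊓ Subgroup.centralizer ((W ⊓ Subgroup.centralizer ({b} : Set X) : Subgroup X) : Set X) ≠ ⊥ := by
    by_cases hex : ∃ a₁ ∈ A, a₁ ≠ 1 ∧
        V ⊓ Subgroup.centralizer ((W ⊓ Subgroup.centralizer ({a₁} : Set X) : Subgroup X) : Set X) = ⊥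
    · obtain ⟨a₁, ha₁, ha₁1, h1⟩ := hex
      exact ⟨a₁, ha₁, fun b hb _ hb1 h2 => htwo a₁ ha₁ ha₁1 b hb hb1 h1 h2⟩
    · push Not at hex
      exact ⟨a, ha, fun b hb hba _ => hex b hb (hne1 b hba)⟩
  refine ⟨H, a, a₀, hH, hnsH, ha, ha₀, fun b hb hba hba₀ => ?_, ?_⟩
  · obtain ⟨Hb, hKHb, hHb⟩ := hex b hb hba
    refine (hCb b hb (hne1 b hba)).trans (hKHb.trans (le_of_eq ?_))
    set Vb := V ⊓ Subgroup.centralizer ((W ⊓ Subgroup.centralizer ({b} : Set X) : Subgroup X) : Set X)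
      with hVb
    have hVbH : Vb ≤ Hb := (inf_le_inf_right _ hVG).trans hKHb
    have hWVb : W ≤ Subgroup.normalizer (Vb : Set X) :=
      le_normalizer_inf' (hWH.trans hVH) (le_normalizer_centralizer
        (le_normalizer_of_conj_mem fun w hw u hu => by
          rwa [haveI := hWc; setLike_mul_comm (s := W) hw hu.1, mul_inv_cancel_right]))
    have hle := c.le_core_of_moved hM hr ht hrt hHb ((hFW b).trans hKHb) hVbH (hVt.to_le inf_le_left) hWVb
      (le_bot_iff.mp ((inf_le_inf_right _ inf_le_left).trans hVW.le))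
    exact c.eq_of_exceptional hM hr ht hW1 hD hHb hH ((hFW b).trans hKHb) hFH
      (fun e => ha₀spec b hb hba hba₀ (le_bot_iff.mp (hle.trans e.le))) hX1
  · obtain ⟨e, he, he1, hWe⟩ := (c.hyp.mono hWG hWA).exists_fix_not_le (K := Subgroup.centralizer (V : Set X))
      (fun h => hV1 (le_bot_iff.mp ((le_inf le_rfl (Subgroup.le_centralizer_iff.mp h)).trans hVW.le)))
    refine ⟨Xt, e, he, hXM, fun b hb hbe => ?_⟩
    set We := W ⊓ Subgroup.centralizer ({e} : Set X) with hWedef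
    obtain ⟨v, hv, hv1, hvb⟩ := exists_fixed_of_not_le_abelian c.hyp.prime (c.hyp.exp b hb) (V := V) (B := We)
      hVc ⟨⟨fun x y => Subtype.ext (haveI := hWc; setLike_mul_comm (s := W) x.2.1 y.2.1)⟩⟩
      ((inf_le_left.trans hWH).trans hVH) (hVA hb) (hWbA e he hb)
      (fun m hm hbm => c.eq_one_of_two he he1 hb hbe (hWG hm.1) (mem_centralizer_one.mp hm.2) hbm)
      (IsPGroup.coprime_card_of_ne r t hrt _ _ (hWr.to_le inf_le_left) hVt)
      (fun hle => hWe (Subgroup.le_centralizer_iff.mp hle))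
    exact ⟨v, hv.1, hVG hv, hv1, hvb⟩

/-- Every maximal invariant subgroup is `Star`. -/
theorem Ctx.star (c : Ctx q A G) (hM : IsMax A G M) : Star M := by
  by_contra hns
  obtain ⟨H, a, a₀, hH, hnsH, ha, ha₀, hCH, -⟩ := c.non_star hM hns
  obtain ⟨-, -, -, -, -, -, -, -, Xs, e, he, hXs, hfix⟩ := c.non_star hH hnsH
  obtain ⟨b, hb, hba, hba₀, hbe⟩ := c.hyp.exists_avoid c.three ha ha₀ he
  obtain ⟨x, hx, hxG, hx1, hxb⟩ := hfix b hb hbe
  exact hx1 (Subgroup.mem_bot.mp (hXs ▸ Subgroup.mem_inf.mpr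
    ⟨hx, hCH b hb hba hba₀ ⟨hxG, mem_centralizer_one.mpr hxb⟩⟩))

end CfsgLib.AbelianFix
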